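import Cfsg.Agent.CTFrame.Hom
import Cfsg.Agent.FastGrp
import Cfsg.Agent.Prune
set_option linter.all false
prune_inst 0x7f00000000000000000000000000000000000000000000000000000000000000000000000000000000000000000000000000000000000000000000000000000000000000000000000000000000000000003fffffffffffffffffffffffffffbeffbdffffffff
open scoped Cfsg.Agent.FastGrp

/-!
# Steinberg relations over `F₅` (helper866; S5924, X1)

* `hrel_five` : over `ZMod 5` the elements `h_{ij}(u)` are multiplicative (`K₂(F₅) = 0`);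
* `of_steinberg'` : injective homomorphisms from `SL₃(5)`.
-/

set_option autoImplicit false
set_option linter.unusedSectionVars false

namespace Cfsg.Agent.H866.L5

open scoped commutatorElement
open Matrix Cfsg.Agent.AGraded Cfsg.Agent.AGraded.SteinRel Cfsg.Agent.CTFrame.Weyl Cfsg.Agent.CTFrame.Torus

universe u v w

section Gen

variable {ι : Type u} [Fintype ι] [DecidableEq ι] {F : Type v} [Field F] {Γ : Type w} [Group Γ]
  {x : ι → ι → F → Γ} (h : SteinRel x) (hι : 3 ≤ Fintype.card ι)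

/-- elements commuting with the root elements -/
def Zn (x : ι → ι → F → Γ) (g : Γ) : Prop := ∀ k l, k ≠ l → ∀ a, g * x k l a = x k l a * g

theorem Zn.comm_t {g : Γ} (hg : Zn x g) {i j : ι} (hij : i ≠ j) (u : F) : g * t x i j u = t x i j u * g := by
  have h1 : ∀ u, Commute g (w x i j u) := fun u =>
    (Commute.mul_right (hg i j hij u) (hg j i hij.symm _)).mul_right (hg i j hij u)
  exact (h1 u).mul_right (h1 (-1))

theorem Zn.of_conj {g g' : Γ} {f : ι → ι → F} (h1 : ∀ k l, k ≠ l → ∀ a, g * x k l a * g⁻¹ = x k l (f k l * a))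
    (h2 : ∀ k l, k ≠ l → ∀ a, g' * x k l a * g'⁻¹ = x k l (f k l * a)) : Zn x (g'⁻¹ * g) := by
  intro k l hkl a
  have e : g * x k l a * g⁻¹ = g' * x k l a * g'⁻¹ := (h1 k l hkl a).trans (h2 k l hkl a).symm
  calc g'⁻¹ * g * x k l a = g'⁻¹ * (g * x k l a * g⁻¹) * g := by group
    _ = x k l a * (g'⁻¹ * g) := by rw [e]; group

include h hι

theorem w_rev {i j : ι} (hij : i ≠ j) {u : F} (hu : u ≠ 0) : w x i j u = w x j i (-u⁻¹) := by
  have h1 := w_conj_w h hι hij hu hij u
  rw [mul_inv_cancel_right, Equiv.swap_apply_left, Equiv.swap_apply_right] at h1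
  rw [h1]
  congr 1
  simp [cf, hij.symm]
  field_simp

theorem t_neg {i j : ι} (hij : i ≠ j) {u : F} (hu : u ≠ 0) : t x i j u * t x i j (-u) = t x i j (-u ^ 2) := by
  have h1 := w_conj_w h hι hij hu hij (-1)
  rw [Equiv.swap_apply_left, Equiv.swap_apply_right] at h1
  have hu2 : u ^ 2 ≠ 0 := pow_ne_zero 2 hu
  have e : cf i j u i * (cf i j u j)⁻¹ * (-1) = -(-(u ^ 2))⁻¹ := by
    simp [cf, hij.symm]
    field_simp
  rw [e, ← w_rev h hι hij (neg_ne_zero.2 hu2)] at h1
  rw [t, t, t, ← h1, winv h hij]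
  group

/-- the commutator form of the symbol -/
theorem sym_eq {i j k : ι} (hij : i ≠ j) (hik : i ≠ k) (hjk : j ≠ k) {u : F} (hu : u ≠ 0) (v : F) :
    t x i k u * t x i j v * (t x i k u)⁻¹ = t x i j (u * v) * (t x i j u)⁻¹ := by
  have h2 := conj_t_of h hij (t_conj_w h hι hik hu hij) v
  have e : df i k u i * (df i k u j)⁻¹ = u := by
    simp [df, hij.symm, hjk]
  rwa [e] at h2

omit h hι in
theorem df_mul (i j : ι) (u v : F) (k : ι) : df i j (u * v) k = df i j u k * df i j v k := by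
  unfold df
  split_ifs
  · rfl
  · rw [mul_inv]
  · rw [mul_one]

theorem zn_t {i j : ι} (hij : i ≠ j) {u v : F} (hu : u ≠ 0) (hv : v ≠ 0) :
    Zn x ((t x i j u * t x i j v)⁻¹ * t x i j (u * v)) := by
  refine Zn.of_conj (f := fun k l => df i j (u * v) k * (df i j (u * v) l)⁻¹)
    (fun k l hkl a => t_conj h hι hij (mul_ne_zero hu hv) hkl a) (fun k l hkl a => ?_)
  have e : t x i j u * t x i j v * x k l a * (t x i j u * t x i j v)⁻¹ =
      t x i j u * (t x i j v * x k l a * (t x i j v)⁻¹) * (t x i j u)⁻¹ := by group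
  rw [e, t_conj h hι hij hv hkl, t_conj h hι hij hu hkl, df_mul i j, df_mul i j, mul_inv]
  congr 1
  ring

/-- multiplicativity in the second variable -/
theorem sym_mul {i j k : ι} (hij : i ≠ j) (hik : i ≠ k) (hjk : j ≠ k) {u v v' : F} (hu : u ≠ 0) (hv : v ≠ 0)
    (hv' : v' ≠ 0) (h1 : t x i j (u * v) = t x i j v * t x i j u) (h2 : t x i j (u * v') = t x i j v' * t x i j u) :
    t x i j (u * (v * v')) = t x i j (v * v') * t x i j u := by
  obtain ⟨z, hz⟩ : ∃ z, z = (t x i j v * t x i j v')⁻¹ * t x i j (v * v') := ⟨_, rfl⟩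
  have hzZ := zn_t h hι hij hv hv'
  rw [← hz] at hzZ
  have e : t x i j (v * v') = t x i j v * t x i j v' * z := by rw [hz]; group
  have f : ∀ a, t x i j (u * a) = t x i j a * t x i j u → t x i k u * t x i j a * (t x i k u)⁻¹ = t x i j a := by
    intro a ha
    rw [sym_eq h hι hij hik hjk hu, ha, mul_inv_cancel_right]
  have f1 := f v h1
  have f2 := f v' h2
  have h3 := sym_eq h hι hij hik hjk hu (v * v')
  have h4 : t x i k u * t x i j (v * v') * (t x i k u)⁻¹ = t x i j (v * v') := by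
    rw [e]
    calc t x i k u * (t x i j v * t x i j v' * z) * (t x i k u)⁻¹ =
        (t x i k u * t x i j v * (t x i k u)⁻¹) * (t x i k u * t x i j v' * (t x i k u)⁻¹) *
          (t x i k u * z * (t x i k u)⁻¹) := by group
      _ = t x i j v * t x i j v' * z := by
          rw [f1, f2, ← hzZ.comm_t hik, mul_inv_cancel_right]
  rw [h4] at h3
  rw [h3]
  group

end Gen

theorem fact5 : Fact (Nat.Prime 5) := ⟨by norm_num⟩

attribute [local instance] fact5

/-- `h_{ij}` is multiplicative over `F₅` -/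
theorem hrel_five {Γ : Type*} [Group Γ] {ι : Type*} [Fintype ι] [DecidableEq ι] {x : ι → ι → ZMod 5 → Γ}
    (h : SteinRel x) (hι : 3 ≤ Fintype.card ι) : HRel x := by
  intro i j hij a b ha hb
  obtain ⟨k, hki, hkj⟩ := h.exists_third hι i j
  have n2 : (2 : ZMod 5) ≠ 0 := by decide
  have n3 : (3 : ZMod 5) ≠ 0 := by decide
  have t1 : t x i j 1 = 1 := t_one h hij
  have t23 : t x i j 2 * t x i j 3 = 1 := by
    have h1 := t_neg h hι hij n2
    have e1 : (-2 : ZMod 5) = 3 := by decide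
    have e2 : (-2 ^ 2 : ZMod 5) = 1 := by decide
    rwa [e1, e2, t1] at h1
  have t32 : t x i j 3 * t x i j 2 = 1 := by
    rw [mul_eq_one_iff_eq_inv] at t23
    rw [t23, mul_inv_cancel]
  have c3 : t x i j (2 * 3) = t x i j 3 * t x i j 2 := by
    rw [t32]
    exact t1
  have c1 : t x i j (2 * 1) = t x i j 1 * t x i j 2 := by rw [t1, one_mul, mul_one]
  -- the symbol `{2, 2}`
  have c2 : t x i j (2 * 2) = t x i j 2 * t x i j 2 := by
    obtain ⟨z, hz⟩ : ∃ z, z = (t x i j 3 * t x i j 2)⁻¹ * t x i j (3 * 2) := ⟨_, rfl⟩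
    have h4 := sym_eq h hι hij hki.symm hkj.symm n2 (3 : ZMod 5)
    have e32 : (2 * 3 : ZMod 5) = 1 := by decide
    rw [e32, t1, one_mul] at h4
    have h5 : t x i j 3 = (t x i j 2)⁻¹ := eq_inv_of_mul_eq_one_left t32
    rw [h5] at h4
    have h6 := sym_eq h hι hij hki.symm hkj.symm n2 (2 : ZMod 5)
    have h7 : t x i k 2 * t x i j 2 * (t x i k 2)⁻¹ = t x i j 2 := by
      have h8 : (t x i k 2 * t x i j 2 * (t x i k 2)⁻¹)⁻¹ = (t x i j 2)⁻¹ := by
        rw [← h4]
        group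
      exact inv_injective h8
    rw [h7] at h6
    rw [← inv_mul_eq_iff_eq_mul] 
    rw [inv_mul_eq_iff_eq_mul, ← mul_inv_eq_iff_eq_mul]
    exact h6.symm
  have e4 : (2 * 2 : ZMod 5) = 4 := by decide
  have e3 : (2 * 4 : ZMod 5) = 3 := by decide
  have c4 : t x i j (2 * 4) = t x i j 4 * t x i j 2 := by
    have h1 := sym_mul h hι hij hki.symm hkj.symm n2 n2 n2 c2 c2
    rwa [e4] at h1
  obtain ⟨T, hT⟩ : ∃ T, T = t x i j 2 := ⟨_, rfl⟩
  rw [← hT] at t23 t32 c2 c4 c3
  rw [e4] at c2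
  rw [e3, c2] at c4
  rw [c4] at t23
  have hT4 : T * T * T * T = 1 := by rw [← t23]; group
  have key : ∀ m : Fin 4, t x i j ((2 : ZMod 5) ^ (m : ℕ)) = T ^ (m : ℕ) := by
    intro m
    fin_cases m
    · simpa using t1
    · show t x i j (2 ^ 1) = T ^ 1
      rw [pow_one, pow_one, hT]
    · show t x i j (2 ^ 2) = T ^ 2
      have : ((2 : ZMod 5) ^ 2) = 4 := by decide
      rw [this, c2, pow_two]
    · show t x i j (2 ^ 3) = T ^ 3
      have : ((2 : ZMod 5) ^ 3) = 3 := by decide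
      rw [this, c4, pow_succ, pow_two]
  have hpow : ∀ a : ZMod 5, a ≠ 0 → ∃ m : Fin 4, a = 2 ^ (m : ℕ) := by decide
  obtain ⟨m, rfl⟩ := hpow a ha
  obtain ⟨l, rfl⟩ := hpow b hb
  have hT4' : T ^ 4 = 1 := by rw [pow_succ, pow_succ, pow_two]; exact hT4
  have h24 : (2 : ZMod 5) ^ 4 = 1 := by decide
  have e1 : (2 : ZMod 5) ^ (m : ℕ) * 2 ^ (l : ℕ) = 2 ^ (((m : ℕ) + (l : ℕ)) % 4) := by
    rw [← pow_add]
    conv_lhs => rw [← Nat.mod_add_div ((m : ℕ) + (l : ℕ)) 4, pow_add, pow_mul, h24, one_pow, mul_one]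
  have e2 : T ^ (m : ℕ) * T ^ (l : ℕ) = T ^ (((m : ℕ) + (l : ℕ)) % 4) := by
    rw [← pow_add]
    conv_lhs => rw [← Nat.mod_add_div ((m : ℕ) + (l : ℕ)) 4, pow_add, pow_mul, hT4', one_pow, mul_one]
  rw [e1, key, key, e2]
  exact (key ⟨_, Nat.mod_lt _ (by norm_num)⟩).symm

/-- commutators of powers, class two -/
theorem comm_pow_pow {G : Type*} [Group G] {a b z : G} (h : ⁅a, b⁆ = z) (ha : a * z = z * a) (hb : b * z = z * b)
    (m n : ℕ) : ⁅a ^ m, b ^ n⁆ = z ^ (m * n) := by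
  have h1 : ∀ n, a * b ^ n * a⁻¹ = z ^ n * b ^ n := by
    intro n
    induction n with
    | zero => simp
    | succ n ih =>
      have h2 : a * b * a⁻¹ = z * b := by rw [← h, commutatorElement_def]; group
      have hbn : b ^ n * z = z * b ^ n := (Commute.pow_left (show Commute b z from hb) n)
      calc a * b ^ (n + 1) * a⁻¹ = (a * b ^ n * a⁻¹) * (a * b * a⁻¹) := by rw [pow_succ]; group
        _ = z ^ n * (b ^ n * z) * b := by rw [ih, h2]; group
        _ = z ^ (n + 1) * b ^ (n + 1) := by rw [hbn, pow_succ, pow_succ]; group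
  have h3 : ∀ m, a ^ m * b ^ n * (a ^ m)⁻¹ = z ^ (m * n) * b ^ n := by
    intro m
    induction m with
    | zero => simp
    | succ m ih =>
      have haz : a * z ^ (m * n) = z ^ (m * n) * a := (Commute.pow_right (show Commute a z from ha) _)
      calc a ^ (m + 1) * b ^ n * (a ^ (m + 1))⁻¹ = a * (a ^ m * b ^ n * (a ^ m)⁻¹) * a⁻¹ := by rw [pow_succ']; group
        _ = a * z ^ (m * n) * b ^ n * a⁻¹ := by rw [ih]; group
        _ = z ^ (m * n) * (a * b ^ n * a⁻¹) := by rw [haz]; group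
        _ = z ^ ((m + 1) * n) * b ^ n := by
          rw [h1, ← mul_assoc, ← pow_add, add_mul, one_mul]
  rw [commutatorElement_def, h3, mul_inv_cancel_right]

/-- **X1 : the Steinberg presentation of `SL₃(5)`** -/
theorem of_steinberg' {G : Type*} [Group G] (x : Fin 3 → Fin 3 → G) (h1 : ∀ i j, i ≠ j → x i j ^ 5 = 1)
    (h2 : ∀ i j l, i ≠ j → j ≠ l → i ≠ l → ⁅x i j, x j l⁆ = x i l)
    (h3 : ∀ i j l m, i ≠ j → l ≠ m → j ≠ l → i ≠ m → ⁅x i j, x l m⁆ = 1) (h4 : x 0 1 ≠ 1) :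
    ∃ f : Matrix.SpecialLinearGroup (Fin 3) (ZMod 5) →* G, Function.Injective f := by
  let y : Fin 3 → Fin 3 → ZMod 5 → G := fun i j a => x i j ^ a.val
  have hpow : ∀ i j, i ≠ j → ∀ n : ℕ, x i j ^ n = x i j ^ (n % 5) := by
    intro i j hij n
    conv_lhs => rw [← Nat.mod_add_div n 5, pow_add, pow_mul, h1 i j hij, one_pow, mul_one]
  have hst : SteinRel y := by
    refine ⟨?_, ?_, ?_⟩
    · intro i j hij a b
      show x i j ^ (a + b).val = x i j ^ a.val * x i j ^ b.val
      rw [← pow_add, ZMod.val_add, ← hpow i j hij]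
    · intro i j k l hij hkl hjk hil a b
      have h5 : Commute (x i j) (x k l) := commutatorElement_eq_one_iff_mul_comm.1 (h3 i j k l hij hkl hjk hil)
      exact (h5.pow_left _).pow_right _
    · intro i j k hij hjk hik a b
      show ⁅x i j ^ a.val, x j k ^ b.val⁆ = x i k ^ (a * b).val
      rw [comm_pow_pow (h2 i j k hij hjk hik)
        (commutatorElement_eq_one_iff_mul_comm.1 (h3 i j i k hij hik hij.symm hik))
        (commutatorElement_eq_one_iff_mul_comm.1 (h3 j k i k hjk hik hik.symm hjk)), hpow i k hik, ZMod.val_mul]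
  obtain ⟨π, hπ, -, hker⟩ := Cfsg.Agent.CTFrame.Hom.exists_hom hst (hrel_five hst (by simp)) (by simp)
  refine ⟨π, ?_⟩
  rw [← MonoidHom.ker_eq_bot_iff, eq_bot_iff]
  intro A hA
  have hc := hker ⟨0, 1, by decide, 1, by
    show x 0 1 ^ (1 : ZMod 5).val ≠ 1
    have e : (1 : ZMod 5).val = 1 := by decide
    rw [e, pow_one]
    exact h4⟩ hA
  rw [Matrix.SpecialLinearGroup.mem_center_iff] at hc
  obtain ⟨r, hr, hA'⟩ := hc
  rw [Subgroup.mem_bot]
  apply Subtype.ext
  rw [← hA', Matrix.SpecialLinearGroup.coe_one]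
  have hr1 : ∀ r : ZMod 5, r ^ Fintype.card (Fin 3) = 1 → r = 1 := by decide
  rw [hr1 r hr, map_one]

end Cfsg.Agent.H866.L5
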